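import Cfsg.Agent.Lib.M24CentTwo.Data
import Cfsg.Agent.Lib.Golay.M24
import Cfsg.Agent.Lib.Golay.Words

/-!
The centraliser in `Cfsg.M24` of an involution with eight fixed points acts affinely on the other
sixteen points; it is isomorphic to the centraliser of a transvection in `SL(5, 2)`.
-/

set_option autoImplicit false

namespace CfsgLib.M24CentTwo

open Cfsg CfsgLib.Golay Matrix
open scoped Pointwise

/-- The affine vector with a given label: coordinate `1` is `1`. -/
def affVec (k : Fin 16) : Fin 5 → ZMod 2 :=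
  ![(k.val : ZMod 2), 1, ((k.val / 2 : ℕ) : ZMod 2), ((k.val / 4 : ℕ) : ZMod 2),
    ((k.val / 8 : ℕ) : ZMod 2)]

/-- The label of a vector. -/
def affIdx (v : Fin 5 → ZMod 2) : Fin 16 :=
  ⟨((v 0).val + 2 * (v 2).val + 4 * (v 3).val + 8 * (v 4).val) % 16, Nat.mod_lt _ (by norm_num)⟩

/-- The action of a matrix on labels. -/
def actIdx (M : Matrix (Fin 5) (Fin 5) (ZMod 2)) (k : Fin 16) : Fin 16 := affIdx (M *ᵥ affVec k)

/-- The point with a given label. -/
def labPt (k : Fin 16) : GolayPt := pt (affLabels.getD k.val 0)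

theorem affVec_affIdx : ∀ v : Fin 5 → ZMod 2, v 1 = 1 → affVec (affIdx v) = v := by decide +kernel

theorem affIdx_affVec : ∀ k, affIdx (affVec k) = k := by decide +kernel

theorem labPt_injective : Function.Injective labPt := by
  unfold Function.Injective
  decide +kernel

/-- The second row is that of the identity. -/
def RowGood (M : Matrix (Fin 5) (Fin 5) (ZMod 2)) : Prop := ∀ j, M 1 j = if j = 1 then 1 else 0

theorem RowGood.one : RowGood 1 := fun j => by simp [Matrix.one_apply, eq_comm]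

theorem RowGood.mul {M N : Matrix (Fin 5) (Fin 5) (ZMod 2)} (hM : RowGood M) (hN : RowGood N) :
    RowGood (M * N) := fun j => by simp [Matrix.mul_apply, hM _, hN j]

theorem affVec_actIdx {M : Matrix (Fin 5) (Fin 5) (ZMod 2)} (hM : RowGood M) (k : Fin 16) :
    affVec (actIdx M k) = M *ᵥ affVec k :=
  affVec_affIdx _ (by simp [Matrix.mulVec, dotProduct, hM _, affVec])

theorem actIdx_mul {M N : Matrix (Fin 5) (Fin 5) (ZMod 2)} (hN : RowGood N) (k : Fin 16) :
    actIdx (M * N) k = actIdx M (actIdx N k) := by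
  show affIdx _ = affIdx _
  rw [affVec_actIdx hN, Matrix.mulVec_mulVec]

theorem eq_of_actIdx_eq {M M' : Matrix (Fin 5) (Fin 5) (ZMod 2)} (hM : RowGood M) (hM' : RowGood M')
    (h : ∀ k, actIdx M k = actIdx M' k) : M = M' := by
  have h' : ∀ k, M *ᵥ affVec k = M' *ᵥ affVec k := fun k => by
    rw [← affVec_actIdx hM, ← affVec_actIdx hM', h]
  refine Matrix.ext_of_mulVec_single fun i => ?_
  have e : ∀ a b, M *ᵥ (affVec a - affVec b) = M' *ᵥ (affVec a - affVec b) := fun a b => by
    rw [Matrix.mulVec_sub, Matrix.mulVec_sub, h', h']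
  obtain ⟨a, b, hi | hi⟩ := (show ∀ i : Fin 5, ∃ a b : Fin 16,
      (Pi.single i (1 : ZMod 2) : Fin 5 → ZMod 2) = affVec a - affVec b ∨
        (Pi.single i (1 : ZMod 2) : Fin 5 → ZMod 2) = affVec a by decide +kernel) i
  · rw [hi]; exact e a b
  · rw [hi]; exact h' a

/-- A permutation acts on the labelled points as a matrix does. -/
def ActsAs (c : Equiv.Perm GolayPt) (M : Matrix (Fin 5) (Fin 5) (ZMod 2)) : Prop :=
  ∀ k, c (labPt k) = labPt (actIdx M k)

theorem ActsAs.one : ActsAs 1 1 := fun k => by simp [actIdx, affIdx_affVec]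

theorem ActsAs.mul {c d : Equiv.Perm GolayPt} {M N : Matrix (Fin 5) (Fin 5) (ZMod 2)}
    (hN : RowGood N) (hc : ActsAs c M) (hd : ActsAs d N) : ActsAs (c * d) (M * N) := fun k => by
  rw [Equiv.Perm.mul_apply, hd, hc, actIdx_mul hN]

theorem ActsAs.matrix_eq {c : Equiv.Perm GolayPt} {M M' : Matrix (Fin 5) (Fin 5) (ZMod 2)}
    (hM : RowGood M) (hM' : RowGood M') (h : ActsAs c M) (h' : ActsAs c M') : M = M' :=
  eq_of_actIdx_eq hM hM' fun k => labPt_injective ((h k).symm.trans (h' k))

/-- The masks of the labelled points. -/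
def labMasks : List ℕ := affLabels.map (2 ^ ·)

theorem sep_ok : chainOK labMasks [] sepOctads = true := by decide +kernel

theorem stabK_labMasks : stabK labMasks = ⊥ := by
  have h := card_stabK sep_ok
  exact Subgroup.card_eq_one.1 (by simpa [chainOrder] using h)

theorem labMasks_cases : ∀ i < 16, affLabels.getD i 0 < 24 ∧
    labMasks.getD i 0 = 2 ^ affLabels.getD i 0 := by decide +kernel

theorem ActsAs.perm_eq {c c' : Equiv.Perm GolayPt} (hcM : c ∈ M24) (hc'M : c' ∈ M24)
    {M : Matrix (Fin 5) (Fin 5) (ZMod 2)} (h : ActsAs c M) (h' : ActsAs c' M) : c = c' := by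
  have hm : c⁻¹ * c' ∈ stabK labMasks := by
    refine mem_stabK.2 ⟨mul_mem (inv_mem hcM) hc'M, fun n hn => ?_⟩
    obtain ⟨i, hi, rfl⟩ := List.getElem_of_mem hn
    have hi' : i < 16 := by simpa [labMasks, affLabels] using hi
    obtain ⟨hlt, he⟩ := labMasks_cases i hi'
    rw [List.getD_eq_getElem _ _ hi] at he
    rw [he, unmask_two_pow_of_lt hlt, Finset.smul_finset_singleton, Equiv.Perm.smul_def]
    congr 1
    have h1 : c' (labPt ⟨i, hi'⟩) = c (labPt ⟨i, hi'⟩) := (h' _).trans (h _).symm
    show c⁻¹ (c' (labPt ⟨i, hi'⟩)) = labPt ⟨i, hi'⟩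
    rw [h1]
    exact c.symm_apply_apply _
  rw [stabK_labMasks, Subgroup.mem_bot] at hm
  exact inv_mul_eq_one.1 hm

/-- A matrix is induced by an element of `M24`. -/
def Induced (M : Matrix (Fin 5) (Fin 5) (ZMod 2)) : Prop :=
  RowGood M ∧ ∃ c ∈ M24, ActsAs c M

theorem Induced.one : Induced 1 := ⟨RowGood.one, 1, one_mem _, ActsAs.one⟩

theorem Induced.mul {M N : Matrix (Fin 5) (Fin 5) (ZMod 2)} (hM : Induced M) (hN : Induced N) :
    Induced (M * N) := by
  obtain ⟨hM, c, hc, hcM⟩ := hM
  obtain ⟨hN, d, hd, hdN⟩ := hN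
  exact ⟨hM.mul hN, c * d, mul_mem hc hd, hcM.mul hN hdN⟩

/-- The table check of the generators. -/
def transvCheck : Bool := (transvPairs.zip transvTbls).all fun x =>
  inM24 x.2 && decide (x.1.1 ≠ (1 : Fin 5)) &&
    (List.finRange 16).all fun k => tblAt x.2 (affLabels.getD k.val 0) ==
      affLabels.getD (actIdx (Matrix.transvection x.1.1 x.1.2 1) k).val 0

theorem transvCheck_ok : transvCheck = true := by decide +kernel

theorem induced_transvection {i j : Fin 5} (h : (i, j) ∈ transvPairs) (c : ZMod 2) :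
    Induced (Matrix.transvection i j c) := by
  fin_cases c
  · show Induced (Matrix.transvection i j 0)
    rw [Matrix.transvection_zero]
    exact Induced.one
  obtain ⟨t, ht⟩ : ∃ t, ((i, j), t) ∈ transvPairs.zip transvTbls := by
    obtain ⟨n, hn, he⟩ := List.getElem_of_mem h
    have hn' : n < transvTbls.length := by simpa [transvPairs, transvTbls] using hn
    refine ⟨transvTbls[n], List.mem_iff_getElem.2 ⟨n, by simp [hn, hn'], ?_⟩⟩
    rw [List.getElem_zip, he]
  have hok := List.all_eq_true.1 transvCheck_ok _ ht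
  simp only [Bool.and_eq_true, decide_eq_true_eq, List.all_eq_true, beq_iff_eq] at hok
  obtain ⟨⟨hM, hi⟩, hact⟩ := hok
  refine ⟨fun l => ?_, ?_⟩
  · show Matrix.transvection i j 1 1 l = _
    simp [Matrix.transvection, Matrix.one_apply, Matrix.single_apply_of_row_ne hi, eq_comm]
  obtain ⟨g, hg⟩ := exists_isTbl (show okTbl t = true by
    simp only [inM24, Bool.and_eq_true] at hM; exact hM.1)
  refine ⟨g, mem_M24_of_isTbl hg hM, fun k => idx_injective ?_⟩
  rw [hg, labPt, labPt, idx_pt (labMasks_cases _ k.2).1, idx_pt (labMasks_cases _ (Fin.is_lt _)).1]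
  exact hact k (List.mem_finRange k)

/-- A matrix of size three, extended by the identity on the first two coordinates. -/
def extTwo (A : Matrix (Fin 3) (Fin 3) (ZMod 2)) : Matrix (Fin 5) (Fin 5) (ZMod 2) :=
  (Matrix.fromBlocks (1 : Matrix (Fin 2) (Fin 2) (ZMod 2)) 0 0 A).reindex finSumFinEquiv finSumFinEquiv

theorem extTwo_mul (A B : Matrix (Fin 3) (Fin 3) (ZMod 2)) : extTwo (A * B) = extTwo A * extTwo B := by
  simp [extTwo, Matrix.submatrix_mul_equiv, Matrix.fromBlocks_multiply]

theorem extTwo_one : extTwo 1 = 1 := by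
  simp [extTwo, Matrix.fromBlocks_one]

theorem extTwo_det (A : Matrix (Fin 3) (Fin 3) (ZMod 2)) : (extTwo A).det = A.det := by
  simp [extTwo]

theorem extTwo_transvection : ∀ i j : Fin 3, i ≠ j → ∀ c : ZMod 2,
    extTwo (Matrix.transvection i j c) = Matrix.transvection (Fin.natAdd 2 i) (Fin.natAdd 2 j) c ∧
      (Fin.natAdd 2 i, Fin.natAdd 2 j) ∈ transvPairs := by
  decide +kernel

theorem induced_extTwo (A : Matrix (Fin 3) (Fin 3) (ZMod 2)) (hA : A.det ≠ 0) :
    Induced (extTwo A) := by
  refine Matrix.diagonal_transvection_induction_of_det_ne_zero (fun A => Induced (extTwo A)) A hA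
    (fun D hD => ?_) (fun t => ?_) fun A B _ _ hA hB => ?_
  · have : Matrix.diagonal D = 1 := by
      rw [← Matrix.diagonal_one]
      congr 1
      funext i
      rw [Matrix.det_diagonal, Finset.prod_ne_zero_iff] at hD
      exact (show ∀ x : ZMod 2, x ≠ 0 → x = 1 by decide) _ (hD i (Finset.mem_univ _))
    rw [this, extTwo_one]
    exact Induced.one
  · obtain ⟨h1, h2⟩ := extTwo_transvection t.i t.j t.hij t.c
    rw [Matrix.TransvectionStruct.toMatrix, h1]
    exact induced_transvection h2 _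
  · rw [extTwo_mul]
    exact hA.mul hB

/-- The normal form of a matrix commuting with the transvection. -/
def centForm (a : Fin 4 → ZMod 2) (b : Fin 3 → ZMod 2) (A : Matrix (Fin 3) (Fin 3) (ZMod 2)) :
    Matrix (Fin 5) (Fin 5) (ZMod 2) :=
  Matrix.transvection 2 1 (b 0) * Matrix.transvection 3 1 (b 1) * Matrix.transvection 4 1 (b 2) *
    extTwo A * (Matrix.transvection 0 1 (a 0) * Matrix.transvection 0 2 (a 1) *
      Matrix.transvection 0 3 (a 2) * Matrix.transvection 0 4 (a 3))

theorem centForm_eq (a : Fin 4 → ZMod 2) (b : Fin 3 → ZMod 2) (A : Matrix (Fin 3) (Fin 3) (ZMod 2)) :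
    centForm a b A = !![1, a 0, a 1, a 2, a 3; 0, 1, 0, 0, 0; 0, b 0, A 0 0, A 0 1, A 0 2;
      0, b 1, A 1 0, A 1 1, A 1 2; 0, b 2, A 2 0, A 2 1, A 2 2] := by
  have hE : extTwo A = !![1, 0, 0, 0, 0; 0, 1, 0, 0, 0; 0, 0, A 0 0, A 0 1, A 0 2;
      0, 0, A 1 0, A 1 1, A 1 2; 0, 0, A 2 0, A 2 1, A 2 2] := by
    ext i j
    fin_cases i <;> fin_cases j <;> rfl
  rw [centForm, hE]
  ext i j
  fin_cases i <;> fin_cases j <;>
    simp [Matrix.mul_apply, Fin.sum_univ_five, Matrix.transvection, Matrix.one_apply, Matrix.single_apply]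

theorem centForm_det (a : Fin 4 → ZMod 2) (b : Fin 3 → ZMod 2) (A : Matrix (Fin 3) (Fin 3) (ZMod 2)) :
    (centForm a b A).det = A.det := by
  simp [centForm, extTwo_det]

theorem induced_centForm (a : Fin 4 → ZMod 2) (b : Fin 3 → ZMod 2)
    (A : Matrix (Fin 3) (Fin 3) (ZMod 2)) (hA : A.det ≠ 0) : Induced (centForm a b A) :=
  ((((induced_transvection (by decide) _).mul (induced_transvection (by decide) _)).mul
    (induced_transvection (by decide) _)).mul (induced_extTwo A hA)).mul
    ((((induced_transvection (by decide) _).mul (induced_transvection (by decide) _)).mul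
      (induced_transvection (by decide) _)).mul (induced_transvection (by decide) _))

end CfsgLib.M24CentTwo
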