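import Mathlib

/-!
Certificate data for the centraliser in `Cfsg.M24` of an involution with eight fixed points.
-/

set_option autoImplicit false

namespace CfsgLib.M24CentTwo

/-- The points off the octad, labelled by the affine space of dimension four. -/
def affLabels : List ℕ := [1, 7, 8, 15, 9, 14, 16, 20, 12, 3, 18, 13, 17, 22, 19, 21]

/-- Octads separating the points of the fixed octad. -/
def sepOctads : List ℕ := [9347075, 1302533, 6053905, 11952160, 15515712, 7767041]

/-- Tables of permutations in `M24` inducing the transvections of `transvPairs`. -/
def transvTbls : List ℕ := [978241746458226444833005867658250464, 486271618918629309646708649444347946, 230551005019175740994250606439933988, 189017694558768210087716001984949285, 983553042649537266979977019204733184, 959823939071994704882402347086186784, 974394222122509349096603230276913536, 28170428107071812186148101034191927, 235869900932881086455334515356637220, 195258226846177725766757484904688678, 87524405100635580212045575892982826, 278626443388318024418571301815429156, 475933736082641786795943807898714146]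

/-- Tables of the fifteen translations. -/
def translTbls : List ℕ := [978241746458226444833005867658250464, 983553042649537266979977019204733184, 980747918883362939279568022996060640, 959823939071994704882402347086186784, 971700361611140356443901154824849856, 972388651884523380316328689283009024, 979236149903553240597937305795791488, 974394222122509349096603230276913536, 967739223789245171407146504132003936, 981940260449521198767676458684353088, 976539006901119804582877792120867232, 965094429999691373696704173595626016, 957028651706772161000819827381930688, 975141542956546445243913353447475808, 965823287528192349793434105431984800]

/-- Tables conjugating the first translation to each. -/
def conjTbls : List ℕ := [984818244535754528103549039458486304, 440925248874959025437228045746896930, 28051448380365163595066567015442468, 980923765675706889829079365204874283, 235742966234959248946515674693065766, 22977954191855499025598134124908578, 195412662388955572984064886706962474, 440916309672007987917718012975159328, 277284167243081374844004961514891301, 479886424424594885682199135877957668, 112340006442799563181615733821582391, 23920109426449749169701666650723370, 225321901489324178740263333090394150, 181880783070249415340969913947348011, 959785982755634971524616562797875234]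

/-- Index pairs of the transvections. -/
def transvPairs : List (Fin 5 × Fin 5) := [(0, 1), (0, 2), (0, 3), (0, 4), (2, 1), (3, 1), (4, 1), (2, 3), (2, 4), (3, 2), (3, 4), (4, 2), (4, 3)]

end CfsgLib.M24CentTwo
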