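import Cfsg.Agent.Lib.M24CentTwo.Basic
import Mathlib.LinearAlgebra.Matrix.GeneralLinearGroup.Card

/-!
The isomorphism between the two centralisers.
-/

set_option autoImplicit false

namespace CfsgLib.M24CentTwo

open Cfsg CfsgLib.Golay Matrix
open scoped Pointwise

theorem labPt_transl : ∀ k, affVec k 1 = 1 ∧ affLabels.getD k.val 0 < 24 := by decide +kernel

/-- Matrices commuting with the transvection have the normal form. -/
theorem exists_centForm {M : Matrix (Fin 5) (Fin 5) (ZMod 2)}
    (h : M * Matrix.transvection (0 : Fin 5) 1 (1 : ZMod 2) = Matrix.transvection (0 : Fin 5) 1 (1 : ZMod 2) * M) (hM : M.det ≠ 0) :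
    ∃ a b A, A.det ≠ 0 ∧ M = centForm a b A := by
  have e : ∀ i j : Fin 5, (M * Matrix.transvection (0 : Fin 5) 1 (1 : ZMod 2)) i j = (Matrix.transvection (0 : Fin 5) 1 (1 : ZMod 2) * M) i j :=
    fun i j => by rw [h]
  have h1 : ∀ j : Fin 5, j ≠ 1 → M 1 j = 0 := fun j hj => by
    have := e 0 j
    rw [Matrix.mul_transvection_apply_of_ne _ _ _ _ hj, Matrix.transvection_mul_apply_same] at this
    linear_combination -this
  have h0 : ∀ i : Fin 5, i ≠ 0 → M i 0 = 0 := fun i hi => by
    have := e i 1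
    rw [Matrix.transvection_mul_apply_of_ne _ _ _ _ hi, Matrix.mul_transvection_apply_same] at this
    linear_combination this
  have h00 : M 0 0 = M 1 1 := by
    have := e 0 1
    rw [Matrix.mul_transvection_apply_same, Matrix.transvection_mul_apply_same] at this
    linear_combination this
  have h11 : M 1 1 = 1 := (show ∀ x : ZMod 2, x ≠ 0 → x = 1 by decide) _ fun h11 => hM
    (Matrix.det_eq_zero_of_row_eq_zero 1 fun j => by
      by_cases hj : j = 1
      · rw [hj, h11]
      · exact h1 j hj)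
  let A : Matrix (Fin 3) (Fin 3) (ZMod 2) :=
    Matrix.of fun i j => M (Fin.natAdd 2 i) (Fin.natAdd 2 j)
  let a : Fin 4 → ZMod 2 := fun j => M 0 (Fin.natAdd 1 j)
  let b : Fin 3 → ZMod 2 := fun i => M (Fin.natAdd 2 i) 1
  have he : M = centForm a b A := by
    rw [centForm_eq]
    ext i j
    fin_cases i <;> fin_cases j <;> first
      | exact h00.trans h11
      | exact h11
      | exact h1 _ (by decide)
      | exact h0 _ (by decide)
      | rfl
  refine ⟨a, b, A, fun hA => hM ?_, he⟩
  rw [he, centForm_det, hA]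

/-- The table of the involution. -/
def zTbl : ℕ := translTbls.getD 0 0

/-- The check of the translations and of the conjugating elements. -/
def translCheck : Bool := (List.range 15).all fun v =>
  inM24 (translTbls.getD v 0) && inM24 (conjTbls.getD v 0) &&
    ((List.range 24).all fun i => tblAt (conjTbls.getD v 0) (tblAt zTbl i) ==
      tblAt (translTbls.getD v 0) (tblAt (conjTbls.getD v 0) i)) &&
    ((List.range 24).all fun i => (tblAt (translTbls.getD v 0) i == i) == octMask.testBit i) &&
    (tblAt (translTbls.getD v 0) (affLabels.getD 0 0) == affLabels.getD (v + 1) 0)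

theorem translCheck_ok : translCheck = true := by decide +kernel

theorem zTbl_acts : ∀ k : Fin 16, tblAt zTbl (affLabels.getD k.val 0) =
    affLabels.getD (actIdx (Matrix.transvection (0 : Fin 5) 1 (1 : ZMod 2)) k).val 0 := by decide +kernel

theorem exists_transl (v : Fin 15) : ∃ t w : Equiv.Perm GolayPt, t ∈ M24 ∧ w ∈ M24 ∧
    IsTbl t (translTbls.getD v.val 0) ∧ IsTbl w (conjTbls.getD v.val 0) ∧
    (∀ z, IsTbl z zTbl → w * z * w⁻¹ = t) ∧ (∀ p, t p = p ↔ p ∈ unmask octMask) ∧
    t (labPt 0) = labPt v.succ := by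
  have h := List.all_eq_true.1 translCheck_ok v.val (List.mem_range.2 v.2)
  simp only [Bool.and_eq_true, List.all_eq_true, List.mem_range, beq_iff_eq] at h
  obtain ⟨⟨⟨⟨ht, hw⟩, hc⟩, hfix⟩, hlab⟩ := h
  obtain ⟨t, ht'⟩ := exists_isTbl (show okTbl _ = true by
    simp only [inM24, Bool.and_eq_true] at ht; exact ht.1)
  obtain ⟨w, hw'⟩ := exists_isTbl (show okTbl _ = true by
    simp only [inM24, Bool.and_eq_true] at hw; exact hw.1)
  refine ⟨t, w, mem_M24_of_isTbl ht' ht, mem_M24_of_isTbl hw' hw, ht', hw', fun z hz => ?_,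
    fun p => ?_, idx_injective ?_⟩
  · rw [mul_inv_eq_iff_eq_mul]
    refine Equiv.ext fun p => idx_injective ?_
    rw [Equiv.Perm.mul_apply, Equiv.Perm.mul_apply, hw', hz, ht', hw']
    exact hc _ (idx_lt p)
  · have hb := hfix (idx p) (idx_lt p)
    rw [mem_unmask, ← hb, beq_iff_eq, ← ht']
    exact ⟨fun e => by rw [e], fun e => idx_injective e⟩
  · rw [ht', labPt, labPt, idx_pt (labPt_transl 0).2, idx_pt (labPt_transl _).2]
    exact hlab

/-- The centraliser in `M24` of an element is small, when the element acts as the translation. -/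
theorem card_cent_le {z : ↥M24} (hz : IsTbl z.1 zTbl) :
    11385 * Nat.card (Subgroup.centralizer ({z} : Set ↥M24)) ≤ 244823040 := by
  classical
  choose t w htM hwM htT hwT hconj hfix hlab using exists_transl
  have hgo : ∀ o : octads, ∃ g : ↥M24, g • unmask octMask = o.1 := fun o =>
    octad_transitive octMask_mem o.2
  choose g hg using hgo
  let f : octads × Fin 15 → ↥M24 ⧸ Subgroup.centralizer ({z} : Set ↥M24) := fun x =>
    QuotientGroup.mk (g x.1 * ⟨w x.2, hwM x.2⟩)
  have hf : Function.Injective f := by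
    rintro ⟨o, v⟩ ⟨o', v'⟩ h
    rw [QuotientGroup.eq, Subgroup.mem_centralizer_singleton_iff] at h
    have hc : ((g o).1 * w v) * z.1 * ((g o).1 * w v)⁻¹ =
        ((g o').1 * w v') * z.1 * ((g o').1 * w v')⁻¹ := by
      have h' := congrArg Subtype.val h
      simp only [Subgroup.coe_mul, InvMemClass.coe_inv] at h'
      set a := (g o).1 * w v
      set b := (g o').1 * w v'
      calc a * z.1 * a⁻¹ = a * (z.1 * (a⁻¹ * b)) * b⁻¹ := by group
        _ = a * ((a⁻¹ * b) * z.1) * b⁻¹ := by rw [h']
        _ = b * z.1 * b⁻¹ := by group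
    have hc' : (g o).1 * t v * (g o).1⁻¹ = (g o').1 * t v' * (g o').1⁻¹ := by
      rw [← hconj v _ hz, ← hconj v' _ hz]
      simpa [mul_assoc] using hc
    have hset : ∀ o v p, ((g o).1 * t v * (g o).1⁻¹) p = p ↔ p ∈ o.1 := by
      intro o v p
      rw [Equiv.Perm.mul_apply, Equiv.Perm.mul_apply, ← Equiv.Perm.eq_inv_iff_eq, hfix, ← hg o]
      exact (Finset.inv_smul_mem_iff (a := (g o).1))
    obtain rfl : o = o' := Subtype.ext (Finset.ext fun p => by
      rw [← hset o v, ← hset o' v', hc'])
    obtain rfl : v = v' := by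
      have := mul_left_cancel (mul_right_cancel hc')
      exact Fin.succ_injective _ (labPt_injective (by rw [← hlab v, ← hlab v', this]))
    rfl
  have h1 := Nat.card_le_card_of_injective f hf
  rw [Nat.card_prod, Nat.card_coe_set_eq, ncard_octads, Nat.card_fin] at h1
  calc 11385 * Nat.card (Subgroup.centralizer ({z} : Set ↥M24))
      ≤ Nat.card (↥M24 ⧸ Subgroup.centralizer ({z} : Set ↥M24)) *
        Nat.card (Subgroup.centralizer ({z} : Set ↥M24)) := Nat.mul_le_mul_right _ h1
    _ = 244823040 := by rw [← Subgroup.card_eq_card_quotient_mul_card_subgroup, natCard_M24]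

variable {s : Matrix.SpecialLinearGroup (Fin 5) (ZMod 2)}

/-- The centraliser of the transvection is large. -/
theorem card_centSL_ge (hs : (s : Matrix (Fin 5) (Fin 5) (ZMod 2)) = Matrix.transvection (0 : Fin 5) 1 (1 : ZMod 2)) :
    21504 ≤ Nat.card (Subgroup.centralizer ({s} : Set (Matrix.SpecialLinearGroup (Fin 5) (ZMod 2)))) := by
  have hdet : ∀ A : GL (Fin 3) (ZMod 2), (A : Matrix (Fin 3) (Fin 3) (ZMod 2)).det = 1 := fun A =>
    (show ∀ x : ZMod 2, x ≠ 0 → x = 1 by decide) _ (Matrix.GeneralLinearGroup.det_ne_zero A)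
  have hcomm : ∀ a b (A : Matrix (Fin 3) (Fin 3) (ZMod 2)),
      centForm a b A * Matrix.transvection (0 : Fin 5) 1 (1 : ZMod 2) = Matrix.transvection (0 : Fin 5) 1 (1 : ZMod 2) * centForm a b A := by
    intro a b A
    rw [centForm_eq]
    ext i j
    fin_cases i <;> fin_cases j <;>
      simp [Matrix.mul_apply, Fin.sum_univ_five, Matrix.transvection, Matrix.one_apply,
        Matrix.single_apply, add_comm]
  let f : (Fin 4 → ZMod 2) × (Fin 3 → ZMod 2) × GL (Fin 3) (ZMod 2) →
      Subgroup.centralizer ({s} : Set (Matrix.SpecialLinearGroup (Fin 5) (ZMod 2))) := fun x =>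
    ⟨⟨centForm x.1 x.2.1 x.2.2, by rw [centForm_det, hdet]⟩,
      Subgroup.mem_centralizer_singleton_iff.2 (Subtype.ext (by
        show centForm x.1 x.2.1 x.2.2 * (s : Matrix (Fin 5) (Fin 5) (ZMod 2)) =
          (s : Matrix (Fin 5) (Fin 5) (ZMod 2)) * centForm x.1 x.2.1 x.2.2
        rw [hs]
        exact hcomm _ _ _))⟩
  have hf : Function.Injective f := by
    rintro ⟨a, b, A⟩ ⟨a', b', A'⟩ h
    have h' : centForm a b A = centForm a' b' A' := congrArg (fun x => x.1.1) h
    rw [centForm_eq, centForm_eq] at h'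
    have e := fun i j => congrFun (congrFun h' i) j
    obtain rfl : a = a' := funext fun j => by
      fin_cases j
      exacts [e 0 1, e 0 2, e 0 3, e 0 4]
    obtain rfl : b = b' := funext fun i => by
      fin_cases i
      exacts [e 2 1, e 3 1, e 4 1]
    obtain rfl : A = A' := Units.ext (Matrix.ext fun i j => by
      fin_cases i <;> fin_cases j
      exacts [e 2 2, e 2 3, e 2 4, e 3 2, e 3 3, e 3 4, e 4 2, e 4 3, e 4 4])
    rfl
  refine le_trans (le_of_eq ?_) (Nat.card_le_card_of_injective f hf)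
  rw [Nat.card_prod, Nat.card_prod, Nat.card_fun, Nat.card_fun, Matrix.card_GL_field,
    Nat.card_zmod, Nat.card_fin, Nat.card_fin]
  simp [Fin.prod_univ_three]

theorem nonempty_mulEquiv (hs : (s : Matrix (Fin 5) (Fin 5) (ZMod 2)) = Matrix.transvection (0 : Fin 5) 1 (1 : ZMod 2)) :
    ∃ z : ↥M24, orderOf z = 2 ∧ Nonempty (↥(Subgroup.centralizer ({z} : Set ↥M24)) ≃*
      ↥(Subgroup.centralizer ({s} : Set (Matrix.SpecialLinearGroup (Fin 5) (ZMod 2))))) := by
  have hz0 : inM24 zTbl = true := by decide +kernel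
  obtain ⟨z0, hz⟩ := exists_isTbl (show okTbl zTbl = true by
    simp only [inM24, Bool.and_eq_true] at hz0; exact hz0.1)
  set z : ↥M24 := ⟨z0, mem_M24_of_isTbl hz hz0⟩
  have hS : RowGood (Matrix.transvection (0 : Fin 5) 1 (1 : ZMod 2)) := by unfold RowGood; decide
  have hzS : ActsAs z0 (Matrix.transvection (0 : Fin 5) 1 (1 : ZMod 2)) := fun k => idx_injective (by
    rw [hz, labPt, labPt, idx_pt (labPt_transl k).2, idx_pt (labPt_transl _).2]
    exact zTbl_acts k)
  refine ⟨z, orderOf_eq_prime ?_ ?_, ?_⟩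
  · refine Subtype.ext ?_
    rw [pow_two]
    refine ActsAs.perm_eq (mul_mem z.2 z.2) (one_mem _) (M := 1) ?_ ActsAs.one
    have := hzS.mul hS hzS
    rwa [Matrix.transvection_mul_transvection_same _ _ (by decide), show (1 + 1 : ZMod 2) = 0 by decide,
      Matrix.transvection_zero] at this
  · intro h
    have h0 : z0 = 1 := congrArg Subtype.val h
    have h1 := ActsAs.matrix_eq hS RowGood.one hzS (h0 ▸ ActsAs.one)
    revert h1
    decide
  set C := Subgroup.centralizer ({s} : Set (Matrix.SpecialLinearGroup (Fin 5) (ZMod 2)))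
  have hind : ∀ M : C, Induced (M.1 : Matrix (Fin 5) (Fin 5) (ZMod 2)) := by
    intro M
    have hM := congrArg
      (fun x : Matrix.SpecialLinearGroup (Fin 5) (ZMod 2) => (x : Matrix (Fin 5) (Fin 5) (ZMod 2)))
      (Subgroup.mem_centralizer_singleton_iff.1 M.2)
    simp only [Matrix.SpecialLinearGroup.coe_mul, hs] at hM
    obtain ⟨a, b, A, hA, e⟩ := exists_centForm hM (by rw [M.1.2]; exact one_ne_zero)
    rw [e]
    exact induced_centForm a b A hA
  choose hrow c hcM hc using hind
  have hcz : ∀ M : C, c M * z0 = z0 * c M := by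
    intro M
    have hM := congrArg
      (fun x : Matrix.SpecialLinearGroup (Fin 5) (ZMod 2) => (x : Matrix (Fin 5) (Fin 5) (ZMod 2)))
      (Subgroup.mem_centralizer_singleton_iff.1 M.2)
    simp only [Matrix.SpecialLinearGroup.coe_mul, hs] at hM
    refine ActsAs.perm_eq (mul_mem (hcM M) z.2) (mul_mem z.2 (hcM M)) ((hc M).mul hS hzS) ?_
    rw [hM]
    exact hzS.mul (hrow M) (hc M)
  let φ : C →* Subgroup.centralizer ({z} : Set ↥M24) :=
    MonoidHom.mk' (fun M => ⟨⟨c M, hcM M⟩, Subgroup.mem_centralizer_singleton_iff.2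
      (Subtype.ext (hcz M))⟩) fun M N => Subtype.ext (Subtype.ext
      (ActsAs.perm_eq (hcM _) (mul_mem (hcM M) (hcM N)) (hc (M * N)) ((hc M).mul (hrow N) (hc N))))
  have hinj : Function.Injective φ := fun M N h => Subtype.ext (Subtype.ext
    (ActsAs.matrix_eq (hrow M) (hrow N) (hc M)
      (by rw [show c M = c N from congrArg (fun x => x.1.1) h]; exact hc N)))
  have h1 := card_cent_le (z := z) hz
  have h2 : 21504 ≤ Nat.card C := card_centSL_ge hs
  have h3 := Nat.card_le_card_of_injective φ hinj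
  exact ⟨(MulEquiv.ofBijective φ ((Nat.bijective_iff_injective_and_card φ).2
    ⟨hinj, by omega⟩)).symm⟩

end CfsgLib.M24CentTwo
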